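import Mathlib

/-!
# The combinatorial classification of the rows of the generalized characters
-/

set_option autoImplicit false
set_option linter.unusedSectionVars false

namespace Cfsg.Agent.Lib.DihBlock

open Finset

universe u v

variable {R : Type u} {A : Type v} [Fintype R] [Fintype A] [DecidableEq R] [DecidableEq A]

/-- Small sums of squares of integers. -/
theorem sq_support {S : Finset R} {f : R → ℤ} {k : ℕ} (hk : k ≤ 3)
    (h : ∑ r ∈ S, f r * f r = k) :
    (S.filter (fun r => f r ≠ 0)).card = k ∧ ∀ r ∈ S, f r ≠ 0 → (f r = 1 ∨ f r = -1) := by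
  have hk' : (k : ℤ) ≤ 3 := by exact_mod_cast hk
  have hone : ∀ r ∈ S, f r ≠ 0 → (f r = 1 ∨ f r = -1) := by
    intro r hr h0
    have h1 : f r * f r ≤ k := by
      rw [← h]
      exact Finset.single_le_sum (f := fun r => f r * f r) (fun j _ => mul_self_nonneg _) hr
    have h2 : f r < 2 := by nlinarith
    have h3 : -2 < f r := by nlinarith
    omega
  refine ⟨?_, hone⟩
  have h1 : ∑ r ∈ S, f r * f r = ∑ r ∈ S.filter (fun r => f r ≠ 0), (1 : ℤ) := by
    rw [Finset.sum_filter]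
    refine Finset.sum_congr rfl fun r hr => ?_
    by_cases h0 : f r = 0
    · simp [h0]
    · rw [if_pos h0]
      rcases hone r hr h0 with h2 | h2 <;> rw [h2] <;> norm_num
  rw [h1] at h
  simpa using h

/-- A sum with a support of two elements. -/
theorem sum_pair_support {S : Finset R} {f g : R → ℤ} {x y : R} (hxy : x ≠ y)
    (hs : S.filter (fun r => f r ≠ 0) = {x, y}) :
    ∑ r ∈ S, g r * f r = g x * f x + g y * f y := by
  rw [← Finset.sum_pair (f := fun r => g r * f r) hxy, ← hs]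
  symm
  apply Finset.sum_subset (Finset.filter_subset _ _)
  intro r hr hr'
  have : f r = 0 := by
    by_contra h0
    exact hr' (Finset.mem_filter.mpr ⟨hr, h0⟩)
  simp [this]

/-- The normal form of a row. -/
theorem row_normal {S : Finset R} {V W d : R → ℤ} (hd : ∀ r, 0 < d r)
    (h1 : ∑ r ∈ S, V r * V r = 2) (h2 : ∑ r ∈ S, W r * V r = 1) (h4 : ∑ r ∈ S, d r * V r = 1)
    (hW : ∀ r ∈ S, W r ≠ 0 → (W r = 1 ∨ W r = -1)) :
    ∃ (x y : R) (s : ℤ), x ∈ S ∧ y ∈ S ∧ x ≠ y ∧ (s = 1 ∨ s = -1) ∧ V x = s ∧ V y = -s ∧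
      (∀ z ∈ S, z ≠ x → z ≠ y → V z = 0) ∧ W x = s ∧ W y = 0 ∧ s * (d x - d y) = 1 := by
  obtain ⟨hc, hv⟩ := sq_support (S := S) (f := V) (k := 2) (by norm_num) (by simpa using h1)
  obtain ⟨x, y, hxy, hs⟩ := Finset.card_eq_two.mp hc
  have hxm : x ∈ S.filter (fun r => V r ≠ 0) := by rw [hs]; simp
  have hym : y ∈ S.filter (fun r => V r ≠ 0) := by rw [hs]; simp
  obtain ⟨hxS, hx0⟩ := Finset.mem_filter.mp hxm
  obtain ⟨hyS, hy0⟩ := Finset.mem_filter.mp hym
  have h2' := sum_pair_support (g := W) hxy hs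
  have h4' := sum_pair_support (g := d) hxy hs
  rw [h2] at h2'
  rw [h4] at h4'
  have hzero : ∀ z ∈ S, z ≠ x → z ≠ y → V z = 0 := by
    intro z hz hzx hzy
    by_contra h0
    have : z ∈ S.filter (fun r => V r ≠ 0) := Finset.mem_filter.mpr ⟨hz, h0⟩
    rw [hs] at this
    simp at this
    tauto
  have hvx := hv x hxS hx0
  have hvy := hv y hyS hy0
  have hdx := hd x
  have hdy := hd y
  have hWx : W x = 0 ∨ W x = 1 ∨ W x = -1 := by
    by_cases h0 : W x = 0
    · exact Or.inl h0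
    · exact Or.inr (hW x hxS h0)
  have hWy : W y = 0 ∨ W y = 1 ∨ W y = -1 := by
    by_cases h0 : W y = 0
    · exact Or.inl h0
    · exact Or.inr (hW y hyS h0)
  rcases hvx with hvx | hvx <;> rcases hvy with hvy | hvy <;> rw [hvx, hvy] at h2' h4'
  · omega
  · -- `V x = 1`, `V y = -1`
    rcases hWx with h5 | h5 | h5 <;> rcases hWy with h6 | h6 | h6 <;> rw [h5, h6] at h2' <;>
      try omega
    · exact ⟨y, x, -1, hyS, hxS, hxy.symm, Or.inr rfl, hvy, by rw [hvx]; norm_num,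
        fun z hz h7 h8 => hzero z hz h8 h7, h6, h5, by omega⟩
    · exact ⟨x, y, 1, hxS, hyS, hxy, Or.inl rfl, hvx, by rw [hvy], hzero, h5, h6, by omega⟩
  · -- `V x = -1`, `V y = 1`
    rcases hWx with h5 | h5 | h5 <;> rcases hWy with h6 | h6 | h6 <;> rw [h5, h6] at h2' <;>
      try omega
    · exact ⟨y, x, 1, hyS, hxS, hxy.symm, Or.inl rfl, hvy, by rw [hvx],
        fun z hz h7 h8 => hzero z hz h8 h7, h6, h5, by omega⟩
    · exact ⟨x, y, -1, hxS, hyS, hxy, Or.inr rfl, hvx, by rw [hvy]; norm_num, hzero, h5, h6,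
        by omega⟩
  · omega

/-- The output of the classification of the rows. -/
structure Rows (i₀ : R) (V : A → R → ℤ) (W : R → ℤ) (δ s₂ s₃ : ℤ) (r₁ r₂ r₃ : R) (p : A → R) :
    Prop where
  hδ : δ = 1 ∨ δ = -1
  hs₂ : s₂ = 1 ∨ s₂ = -1
  hs₃ : s₃ = 1 ∨ s₃ = -1
  inj : Function.Injective p
  r₁i : r₁ ≠ i₀
  r₂i : r₂ ≠ i₀
  r₃i : r₃ ≠ i₀
  r₁₂ : r₁ ≠ r₂
  r₁₃ : r₁ ≠ r₃
  r₂₃ : r₂ ≠ r₃
  pne : ∀ a, p a ≠ i₀ ∧ p a ≠ r₁ ∧ p a ≠ r₂ ∧ p a ≠ r₃
  cover : ∀ r, r = i₀ ∨ r = r₁ ∨ r = r₂ ∨ r = r₃ ∨ ∃ a, r = p a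
  Vval : ∀ a, V a r₁ = -δ ∧ V a (p a) = δ ∧ V a r₂ = 0 ∧ V a r₃ = 0 ∧
        ∀ b, b ≠ a → V a (p b) = 0
  Wr₁ : W r₁ = -δ
  Wr₂ : W r₂ = s₂
  Wr₃ : W r₃ = s₃
  Wp : ∀ a, W (p a) = 0

/-- **The classification of the rows**. -/
theorem classify (i₀ : R) (hA : Odd (Fintype.card A)) (V : A → R → ℤ) (W d : R → ℤ)
    (hd : ∀ r, 0 < d r) (hd0 : d i₀ = 1) (hV0 : ∀ a, V a i₀ = -1) (hW0 : W i₀ = -1)
    (h1 : ∀ a b, ∑ r, V a r * V b r = 2 + if a = b then 1 else 0)
    (h2 : ∀ a, ∑ r, W r * V a r = 2) (h3 : ∑ r, W r * W r = 4)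
    (h4 : ∀ a, ∑ r, d r * V a r = 0) (h5 : ∑ r, d r * W r = 0)
    (h6 : ∀ r, r ≠ i₀ → W r ≠ 0 ∨ ∃ a, V a r ≠ 0) :
    ∃ (δ s₂ s₃ : ℤ) (r₁ r₂ r₃ : R) (p : A → R), Rows i₀ V W δ s₂ s₃ r₁ r₂ r₃ p := by
  set S : Finset R := univ.erase i₀ with hS
  have hsplit : ∀ f : R → ℤ, ∑ r, f r = f i₀ + ∑ r ∈ S, f r := fun f =>
    (Finset.add_sum_erase univ f (Finset.mem_univ i₀)).symm
  have hmemS : ∀ {r : R}, r ∈ S ↔ r ≠ i₀ := by
    intro r
    simp [hS]
  have h1' : ∀ a b, ∑ r ∈ S, V a r * V b r = 1 + if a = b then 1 else 0 := by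
    intro a b
    have := h1 a b
    rw [hsplit, hV0, hV0] at this
    omega
  have h2' : ∀ a, ∑ r ∈ S, W r * V a r = 1 := by
    intro a
    have := h2 a
    rw [hsplit, hV0, hW0] at this
    omega
  have h3' : ∑ r ∈ S, W r * W r = ((3 : ℕ) : ℤ) := by
    rw [hsplit, hW0] at h3
    push_cast
    omega
  have h4' : ∀ a, ∑ r ∈ S, d r * V a r = 1 := by
    intro a
    have := h4 a
    rw [hsplit, hV0, hd0] at this
    omega
  have h5' : ∑ r ∈ S, d r * W r = 1 := by
    rw [hsplit, hW0, hd0] at h5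
    omega
  obtain ⟨hTc, hTv⟩ := sq_support (by norm_num) h3'
  have hnorm := fun a => row_normal (S := S) (V := V a) (W := W) (d := d) hd
    (by rw [h1' a a, if_pos rfl]; norm_num) (h2' a) (h4' a) hTv
  choose x y s hxS hyS hxy hs hVx hVy hV0' hWx hWy hds using hnorm
  have hsne : ∀ a, s a ≠ 0 := fun a => by
    rcases hs a with h | h <;> rw [h] <;> norm_num
  -- the pairwise relation
  have hpair : ∀ a b, a ≠ b → s a = s b ∧ ((x a = x b ∧ y a ≠ y b) ∨ (x a ≠ x b ∧ y a = y b)) := by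
    intro a b hab
    have hsum : ∑ r ∈ S, V b r * V a r = V b (x a) * s a + V b (y a) * (-s a) := by
      have hc : (S.filter (fun r => V a r ≠ 0)) = {x a, y a} := by
        ext z
        simp only [Finset.mem_filter, Finset.mem_insert, Finset.mem_singleton]
        constructor
        · rintro ⟨hz, h0⟩
          by_contra hcon
          push Not at hcon
          exact h0 (hV0' a z hz hcon.1 hcon.2)
        · rintro (rfl | rfl)
          · exact ⟨hxS a, by rw [hVx]; exact hsne a⟩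
          · exact ⟨hyS a, by rw [hVy]; exact neg_ne_zero.mpr (hsne a)⟩
      rw [sum_pair_support (hxy a) hc, hVx, hVy]
    have h7 := h1' b a
    rw [hsum, if_neg hab.symm] at h7
    have hvx : V b (x a) = (if x a = x b then s b else 0) := by
      split_ifs with h8
      · rw [h8, hVx]
      · refine hV0' b _ (hxS a) h8 ?_
        intro h9
        have h10 := hWx a
        rw [h9, hWy b] at h10
        exact hsne a h10.symm
    have hvy : V b (y a) = (if y a = y b then -s b else 0) := by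
      split_ifs with h8
      · rw [h8, hVy]
      · refine hV0' b _ (hyS a) ?_ h8
        intro h9
        have h10 := hWy a
        rw [h9, hWx b] at h10
        exact hsne b h10
    rw [hvx, hvy] at h7
    have hsa := hs a
    have hsb := hs b
    by_cases e1 : x a = x b <;> by_cases e2 : y a = y b <;> simp only [e1, e2, if_true, if_false] at h7
    · exfalso
      rcases hsa with h8 | h8 <;> rcases hsb with h9 | h9 <;> rw [h8, h9] at h7 <;> omega
    · refine ⟨?_, Or.inl ⟨e1, e2⟩⟩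
      rcases hsa with h8 | h8 <;> rcases hsb with h9 | h9 <;> rw [h8, h9] at h7 ⊢ <;> omega
    · refine ⟨?_, Or.inr ⟨e1, e2⟩⟩
      rcases hsa with h8 | h8 <;> rcases hsb with h9 | h9 <;> rw [h8, h9] at h7 ⊢ <;> omega
    · exfalso
      omega
  -- The support of `W`.
  obtain ⟨t₁, t₂, t₃, ht12, ht13, ht23, hT⟩ := Finset.card_eq_three.mp hTc
  have hsumW : ∑ r ∈ S, d r * W r = d t₁ * W t₁ + d t₂ * W t₂ + d t₃ * W t₃ := by
    have h8 : ∑ r ∈ S, d r * W r = ∑ r ∈ S.filter (fun r => W r ≠ 0), d r * W r := by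
      symm
      apply Finset.sum_subset (Finset.filter_subset _ _)
      intro r hr hr'
      have : W r = 0 := by
        by_contra h0
        exact hr' (Finset.mem_filter.mpr ⟨hr, h0⟩)
      simp [this]
    rw [h8, hT, Finset.sum_insert (by simp [ht12, ht13]), Finset.sum_pair ht23]
    ring
  have hmemT : ∀ z ∈ S, W z ≠ 0 → z = t₁ ∨ z = t₂ ∨ z = t₃ := by
    intro z hz h0
    have : z ∈ S.filter (fun r => W r ≠ 0) := Finset.mem_filter.mpr ⟨hz, h0⟩
    rw [hT] at this
    simpa using this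
  have ht1 : t₁ ∈ S.filter (fun r => W r ≠ 0) := by rw [hT]; simp
  have ht2 : t₂ ∈ S.filter (fun r => W r ≠ 0) := by rw [hT]; simp
  have ht3 : t₃ ∈ S.filter (fun r => W r ≠ 0) := by rw [hT]; simp
  obtain ⟨ht1S, ht10⟩ := Finset.mem_filter.mp ht1
  obtain ⟨ht2S, ht20⟩ := Finset.mem_filter.mp ht2
  obtain ⟨ht3S, ht30⟩ := Finset.mem_filter.mp ht3
  -- all `x` are equal
  have hxeq : ∀ a b, x a = x b := by
    intro a b
    by_contra hne
    have hab : a ≠ b := fun e => hne (by rw [e])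
    obtain ⟨hsab, hab2⟩ := hpair a b hab
    have hyab : y a = y b := by
      rcases hab2 with ⟨h7, -⟩ | ⟨-, h7⟩
      · exact absurd h7 hne
      · exact h7
    -- the third index
    have hcard : 2 < Fintype.card A := by
      have h7 : 2 ≤ Fintype.card A := by
        have : ({a, b} : Finset A).card ≤ Fintype.card A := Finset.card_le_univ _
        rwa [Finset.card_pair hab] at this
      rcases hA with ⟨k, hk⟩
      omega
    obtain ⟨c, -, hc⟩ := Finset.exists_mem_notMem_of_card_lt_card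
      (s := ({a, b} : Finset A)) (t := univ)
      (by rw [Finset.card_pair hab]; exact hcard)
    simp only [Finset.mem_insert, Finset.mem_singleton, not_or] at hc
    obtain ⟨hca, hcb⟩ := hc
    obtain ⟨hsac, hac2⟩ := hpair a c (Ne.symm hca)
    obtain ⟨hsbc, hbc2⟩ := hpair b c (Ne.symm hcb)
    have hxac : x a ≠ x c := by
      intro e
      have h7 : x b ≠ x c := fun h8 => hne (e.trans h8.symm)
      rcases hbc2 with ⟨h8, -⟩ | ⟨-, h8⟩
      · exact h7 h8
      · rcases hac2 with ⟨-, h9⟩ | ⟨h9, -⟩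
        · exact h9 (hyab.trans h8)
        · exact h9 e
    have hxbc : x b ≠ x c := by
      intro e
      have h7 : x a ≠ x c := hxac
      rcases hac2 with ⟨h8, -⟩ | ⟨-, h8⟩
      · exact h7 h8
      · rcases hbc2 with ⟨-, h9⟩ | ⟨h9, -⟩
        · exact h9 (hyab.symm.trans h8)
        · exact h9 e
    -- the three elements exhaust the support
    have hsub : ({x a, x b, x c} : Finset R) = S.filter (fun r => W r ≠ 0) := by
      apply Finset.eq_of_subset_of_card_le
      · intro z hz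
        simp only [Finset.mem_insert, Finset.mem_singleton] at hz
        rcases hz with rfl | rfl | rfl
        · exact Finset.mem_filter.mpr ⟨hxS a, by rw [hWx]; exact hsne a⟩
        · exact Finset.mem_filter.mpr ⟨hxS b, by rw [hWx]; exact hsne b⟩
        · exact Finset.mem_filter.mpr ⟨hxS c, by rw [hWx]; exact hsne c⟩
      · rw [hTc, Finset.card_eq_three.mpr ⟨x a, x b, x c, hne, hxac, hxbc, rfl⟩]
    have h8 : ∑ r ∈ S, d r * W r = d (x a) * W (x a) + d (x b) * W (x b) + d (x c) * W (x c) := by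
      have h9 : ∑ r ∈ S, d r * W r = ∑ r ∈ S.filter (fun r => W r ≠ 0), d r * W r := by
        symm
        apply Finset.sum_subset (Finset.filter_subset _ _)
        intro r hr hr'
        have : W r = 0 := by
          by_contra h0
          exact hr' (Finset.mem_filter.mpr ⟨hr, h0⟩)
        simp [this]
      rw [h9, ← hsub, Finset.sum_insert (by simp [hne, hxac]), Finset.sum_pair hxbc]
      ring
    rw [h5', hWx, hWx, hWx, ← hsbc, ← hsab] at h8
    have hda := hd (x a)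
    have hdb := hd (x b)
    have hdc := hd (x c)
    rcases hs a with h9 | h9 <;> rw [h9] at h8 <;> omega
  have hsall : ∀ a b, s a = s b := by
    intro a b
    by_cases hab : a = b
    · rw [hab]
    · exact (hpair a b hab).1
  have hinj : Function.Injective y := by
    intro a b hy
    by_contra hab
    rcases (hpair a b hab).2 with ⟨-, h7⟩ | ⟨h7, -⟩
    · exact h7 hy
    · exact h7 (hxeq a b)
  obtain ⟨a₀⟩ : Nonempty A := by
    rw [← Fintype.card_pos_iff]
    exact hA.pos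
  have hr₁ : x a₀ ∈ S.filter (fun r => W r ≠ 0) :=
    Finset.mem_filter.mpr ⟨hxS a₀, by rw [hWx]; exact hsne a₀⟩
  have herase : ((S.filter (fun r => W r ≠ 0)).erase (x a₀)).card = 2 := by
    rw [Finset.card_erase_of_mem hr₁, hTc]
  obtain ⟨r₂, r₃, h23, her⟩ := Finset.card_eq_two.mp herase
  have hm2 : r₂ ∈ (S.filter (fun r => W r ≠ 0)).erase (x a₀) := by rw [her]; simp
  have hm3 : r₃ ∈ (S.filter (fun r => W r ≠ 0)).erase (x a₀) := by rw [her]; simp
  obtain ⟨h12, hm2'⟩ := Finset.mem_erase.mp hm2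
  obtain ⟨h13, hm3'⟩ := Finset.mem_erase.mp hm3
  obtain ⟨hr2S, hr20⟩ := Finset.mem_filter.mp hm2'
  obtain ⟨hr3S, hr30⟩ := Finset.mem_filter.mp hm3'
  have hcov : ∀ z ∈ S, W z ≠ 0 → z = x a₀ ∨ z = r₂ ∨ z = r₃ := by
    intro z hz h0
    by_cases e : z = x a₀
    · exact Or.inl e
    · have : z ∈ (S.filter (fun r => W r ≠ 0)).erase (x a₀) :=
        Finset.mem_erase.mpr ⟨e, Finset.mem_filter.mpr ⟨hz, h0⟩⟩
      rw [her] at this
      simp only [Finset.mem_insert, Finset.mem_singleton] at this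
      exact Or.inr this
  have hy_ne : ∀ a z, W z ≠ 0 → y a ≠ z := by
    intro a z h0 e
    exact h0 (e ▸ hWy a)
  refine ⟨-s a₀, W r₂, W r₃, x a₀, r₂, r₃, y, ⟨?_, hTv _ hr2S hr20, hTv _ hr3S hr30, hinj,
    hmemS.mp (hxS a₀), hmemS.mp hr2S, hmemS.mp hr3S, h12.symm, h13.symm, h23, ?_, ?_, ?_, ?_, rfl,
    rfl, hWy⟩⟩
  · rcases hs a₀ with h7 | h7 <;> rw [h7] <;> norm_num
  · intro a
    refine ⟨hmemS.mp (hyS a), ?_, hy_ne a _ hr20, hy_ne a _ hr30⟩
    rw [← hxeq a a₀]
    exact (hxy a).symm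
  · intro r
    by_cases hr : r = i₀
    · exact Or.inl hr
    · right
      have hrS : r ∈ S := hmemS.mpr hr
      rcases h6 r hr with h7 | ⟨a, h7⟩
      · rcases hcov r hrS h7 with e | e | e
        · exact Or.inl e
        · exact Or.inr (Or.inl e)
        · exact Or.inr (Or.inr (Or.inl e))
      · by_contra hcon
        push Not at hcon
        obtain ⟨h8, h9, h10, h11⟩ := hcon
        apply h7
        refine hV0' a r hrS ?_ (h11 a)
        rw [hxeq a a₀]
        exact h8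
  · intro a
    refine ⟨?_, ?_, ?_, ?_, ?_⟩
    · rw [← hxeq a a₀, hVx, hsall a a₀]
      ring
    · rw [hVy, hsall a a₀]
    · refine hV0' a r₂ hr2S ?_ (hy_ne a _ hr20).symm
      rw [hxeq a a₀]
      exact h12
    · refine hV0' a r₃ hr3S ?_ (hy_ne a _ hr30).symm
      rw [hxeq a a₀]
      exact h13
    · intro b hb
      refine hV0' a _ (hyS b) ?_ (fun e => hb (hinj e))
      rw [hxeq a b]
      exact (hxy b).symm
  · rw [hWx]
    ring

namespace Rows

variable {i₀ : R} {V : A → R → ℤ} {W : R → ℤ} {δ s₂ s₃ : ℤ} {r₁ r₂ r₃ : R} {p : A → R}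

/-- The number of rows. -/
theorem card (h : Rows i₀ V W δ s₂ s₃ r₁ r₂ r₃ p) : Fintype.card R = 4 + Fintype.card A := by
  have huniv : (univ : Finset R) = {i₀, r₁, r₂, r₃} ∪ univ.image p := by
    ext r
    simp only [mem_univ, mem_union, mem_insert, mem_singleton, mem_image, true_and, true_iff]
    rcases h.cover r with e | e | e | e | ⟨a, e⟩
    · exact Or.inl (Or.inl e)
    · exact Or.inl (Or.inr (Or.inl e))
    · exact Or.inl (Or.inr (Or.inr (Or.inl e)))
    · exact Or.inl (Or.inr (Or.inr (Or.inr e)))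
    · exact Or.inr ⟨a, e.symm⟩
  have hdisj : Disjoint ({i₀, r₁, r₂, r₃} : Finset R) (univ.image p) := by
    rw [Finset.disjoint_right]
    intro r hr
    obtain ⟨a, -, rfl⟩ := Finset.mem_image.mp hr
    obtain ⟨h1, h2, h3, h4⟩ := h.pne a
    simp [h1, h2, h3, h4]
  rw [← Finset.card_univ, huniv, Finset.card_union_of_disjoint hdisj,
    Finset.card_image_of_injective _ h.inj, Finset.card_univ]
  congr 1
  rw [Finset.card_insert_of_notMem, Finset.card_insert_of_notMem, Finset.card_pair h.r₂₃]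
  · simp [h.r₁₂, h.r₁₃]
  · simp [h.r₁i.symm, h.r₂i.symm, h.r₃i.symm]

/-- The weighted sum of a row `V a`. -/
theorem sumV {K : Type*} [CommRing K] (h : Rows i₀ V W δ s₂ s₃ r₁ r₂ r₃ p)
    (hV0 : ∀ a, V a i₀ = -1) (a : A) (f : R → K) :
    ∑ r, (V a r : K) * f r = - f i₀ - (δ : K) * f r₁ + (δ : K) * f (p a) := by
  have hsub : ∑ r ∈ ({i₀, r₁, p a} : Finset R), (V a r : K) * f r = ∑ r, (V a r : K) * f r := by
    apply Finset.sum_subset (Finset.subset_univ _)
    intro r _ hr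
    simp only [mem_insert, mem_singleton, not_or] at hr
    obtain ⟨h1, h2, h3⟩ := hr
    obtain ⟨-, -, h4, h5, h6⟩ := h.Vval a
    have : V a r = 0 := by
      rcases h.cover r with e | e | e | e | ⟨b, e⟩
      · exact absurd e h1
      · exact absurd e h2
      · rw [e, h4]
      · rw [e, h5]
      · rw [e]
        refine h6 b ?_
        rintro rfl
        exact h3 e
    simp [this]
  obtain ⟨h1, h2, -⟩ := h.Vval a
  obtain ⟨h3, h4, -, -⟩ := h.pne a
  rw [← hsub, Finset.sum_insert (by simp [h.r₁i.symm, h3.symm]),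
    Finset.sum_pair (Ne.symm h4), hV0, h1, h2]
  push_cast
  ring

/-- The weighted sum of the row `W`. -/
theorem sumW {K : Type*} [CommRing K] (h : Rows i₀ V W δ s₂ s₃ r₁ r₂ r₃ p)
    (hW0 : W i₀ = -1) (hW : ∀ r, r ≠ i₀ → r ≠ r₁ → r ≠ r₂ → r ≠ r₃ → W r = 0) (f : R → K) :
    ∑ r, (W r : K) * f r = - f i₀ - (δ : K) * f r₁ + (s₂ : K) * f r₂ + (s₃ : K) * f r₃ := by
  have hsub : ∑ r ∈ ({i₀, r₁, r₂, r₃} : Finset R), (W r : K) * f r = ∑ r, (W r : K) * f r := by
    apply Finset.sum_subset (Finset.subset_univ _)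
    intro r _ hr
    simp only [mem_insert, mem_singleton, not_or] at hr
    obtain ⟨h1, h2, h3, h4⟩ := hr
    simp [hW r h1 h2 h3 h4]
  rw [← hsub, Finset.sum_insert (by simp [h.r₁i.symm, h.r₂i.symm, h.r₃i.symm]),
    Finset.sum_insert (by simp [h.r₁₂, h.r₁₃]), Finset.sum_pair h.r₂₃, hW0, h.Wr₁, h.Wr₂, h.Wr₃]
  push_cast
  ring

/-- The row `W` vanishes off its support. -/
theorem W_zero (h : Rows i₀ V W δ s₂ s₃ r₁ r₂ r₃ p) (r : R) (h1 : r ≠ i₀) (h2 : r ≠ r₁)
    (h3 : r ≠ r₂) (h4 : r ≠ r₃) : W r = 0 := by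
  rcases h.cover r with e | e | e | e | ⟨b, e⟩
  · exact absurd e h1
  · exact absurd e h2
  · exact absurd e h3
  · exact absurd e h4
  · rw [e, h.Wp]

end Rows

end Cfsg.Agent.Lib.DihBlock
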