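import Cfsg.Agent.Lib.DihBlock.Local

/-!
# Dihedral Sylow 2-subgroups: fusion of rotations and the frame identity
-/

set_option autoImplicit false
set_option linter.unusedSectionVars false
set_option linter.style.haveILetI false

namespace Cfsg.Agent.Lib.DihBlock

open Cfsg Subgroup
open Cfsg.Agent.Lib.V4Block Cfsg.Agent.Lib.Transfer.Basic Cfsg.Agent.Lib.ZStar.Section
open scoped Pointwise ComplexConjugate

universe u

variable {G : Type u} [Group G] [Finite G]
variable {P : Sylow 2 G} {σ τ : G} {N : ℕ}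

namespace DihCtx

theorem order_pow (h : DihCtx P σ τ N) {y : G} (hy : y ∈ zpowers σ) : ∃ k, orderOf y = 2 ^ k := by
  obtain ⟨k, hk⟩ := h.hNp
  have hdvd : orderOf y ∣ 2 ^ k := by
    rw [← hk, ← h.σo]
    exact orderOf_dvd_of_mem_zpowers hy
  obtain ⟨r, -, hr⟩ := (Nat.dvd_prime_pow Nat.prime_two).mp hdvd
  exact ⟨r, hr⟩

/-- Fusion of rotations. -/
theorem fusion (h : DihCtx P σ τ N) {y y' : G} (hy : y ∈ zpowers σ) (hy' : y' ∈ zpowers σ)
    (hc : IsConj y y') : y' = y ∨ y' = y⁻¹ := by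
  classical
  haveI : Fact (Nat.Prime 2) := ⟨Nat.prime_two⟩
  by_cases hy1 : y = 1
  · subst hy1
    left
    exact (isConj_one_right.mp hc).symm ▸ rfl
  obtain ⟨g, hg⟩ := isConj_iff.mp hc
  set J := σ ^ (N / 2) with hJ
  have hJo : orderOf J = 2 := h.J_order
  have hJJ : J * J = 1 := h.J_sq
  obtain ⟨n, hn⟩ := Subgroup.mem_zpowers_iff.mp (h.J_mem_zpowers hy hy1)
  change y ^ n = J at hn
  have hgJ : g * J * g⁻¹ = J := by
    have h1 : g * J * g⁻¹ = y' ^ n := by
      rw [← hn, ← hg, _root_.conj_zpow]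
    have h2 : g * J * g⁻¹ ∈ zpowers σ := by
      rw [h1]
      exact zpow_mem hy' n
    have h3 : (g * J * g⁻¹) * (g * J * g⁻¹) = 1 := by
      calc (g * J * g⁻¹) * (g * J * g⁻¹) = g * (J * J) * g⁻¹ := by group
        _ = 1 := by rw [hJJ]; group
    rcases h.eq_J h2 h3 with h4 | h4
    · exfalso
      apply ne_one_of_orderOf_two hJo
      have : J = g⁻¹ * (g * J * g⁻¹) * g := by group
      rw [this, h4]
      group
    · exact h4
  set C := centralizer ({J} : Set G) with hC
  have hle : (P : Subgroup G) ≤ C := fun x hx =>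
    Subgroup.mem_centralizer_singleton_iff.mpr (h.J_comm hx).eq
  have hgC : g ∈ C := by
    rw [Subgroup.mem_centralizer_singleton_iff]
    calc g * J = (g * J * g⁻¹) * g := by group
      _ = J * g := by rw [hgJ]
  have hcompl := isComplement'_pResidual h.hasNormal (P.subtype hle)
  set V := pResidual 2 C with hV
  haveI hVn : V.Normal := inferInstance
  obtain ⟨⟨⟨v, hvV⟩, ⟨p, hpS⟩⟩, hvp⟩ := hcompl.2 (⟨g, hgC⟩ : C)
  have hpP : (p : G) ∈ (P : Subgroup G) := by
    have : p ∈ ((P.subtype hle : Sylow 2 C) : Subgroup C) := hpS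
    rw [Sylow.coe_subtype, Subgroup.mem_subgroupOf] at this
    exact this
  have hvp' : (v : G) * (p : G) = g := congrArg Subtype.val hvp
  -- the image of `y` under `p`
  have hpy : ∃ y'' : G, (p : G) * y * (p : G)⁻¹ = y'' ∧ (y'' = y ∨ y'' = y⁻¹) := by
    obtain ⟨i, hi | hi⟩ := h.gen _ hpP
    · refine ⟨y, ?_, Or.inl rfl⟩
      rw [hi, (comm_of_mem (pow_mem (mem_zpowers σ) i) hy).eq]
      group
    · refine ⟨y⁻¹, ?_, Or.inr rfl⟩
      rw [hi]
      exact h.refl_conj i hy
  obtain ⟨y'', hy''1, hy''2⟩ := hpy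
  have hy''Z : y'' ∈ zpowers σ := by
    rcases hy''2 with h1 | h1 <;> rw [h1]
    · exact hy
    · exact inv_mem hy
  have hfin : (v : G) * y'' * (v : G)⁻¹ = y' := by
    rw [← hy''1, ← hg, ← hvp']
    group
  -- `y''⁻¹ y'` is a `2`-element in `V`
  set z := y''⁻¹ * y' with hz
  have hzZ : z ∈ zpowers σ := Subgroup.mul_mem _ (inv_mem hy''Z) hy'
  have hzC : z ∈ C := hle (h.Z_le hzZ)
  have hy''C : y'' ∈ C := hle (h.Z_le hy''Z)
  have hzV : (⟨z, hzC⟩ : C) ∈ V := by
    have h1 : (⟨z, hzC⟩ : C) = ((⟨y'', hy''C⟩ : C)⁻¹ * v * (⟨y'', hy''C⟩ : C)) * v⁻¹ := by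
      apply Subtype.ext
      change z = y''⁻¹ * v * y'' * (v : G)⁻¹
      rw [hz, ← hfin]
      group
    rw [h1]
    refine V.mul_mem ?_ (V.inv_mem hvV)
    have := hVn.conj_mem v hvV (⟨y'', hy''C⟩ : C)⁻¹
    simpa using this
  have hzo := (mem_complement_iff hcompl _).mp hzV
  rw [Subgroup.orderOf_mk] at hzo
  obtain ⟨k, hk⟩ := h.order_pow hzZ
  have hz1 : z = 1 := by
    rw [hk] at hzo
    cases k with
    | zero =>
      rw [pow_zero] at hk
      exact orderOf_eq_one_iff.mp hk
    | succ k =>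
      exfalso
      have := Nat.Coprime.eq_one_of_dvd hzo.symm ⟨2 ^ k, by ring⟩
      omega
  have hfinal : y' = y'' := by
    have : y''⁻¹ * y' = 1 := hz1
    exact (inv_mul_eq_one.mp this).symm
  rw [hfinal]
  exact hy''2

/-- Sylow subgroups of `C(J)`. -/
theorem card_sylow_J (h : DihCtx P σ τ N) (R : Sylow 2 (centralizer ({σ ^ (N / 2)} : Set G))) :
    Nat.card R = 2 * N := by
  haveI : Fact (Nat.Prime 2) := ⟨Nat.prime_two⟩
  have hle : (P : Subgroup G) ≤ centralizer ({σ ^ (N / 2)} : Set G) := fun x hx =>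
    Subgroup.mem_centralizer_singleton_iff.mpr (h.J_comm hx).eq
  rw [Nat.card_congr (Sylow.equiv R (P.subtype hle)).toEquiv, ← h.card_P]
  have h1 : Nat.card (P.subtype hle) =
      Nat.card ((P : Subgroup G).subgroupOf (centralizer ({σ ^ (N / 2)} : Set G))) := by
    apply Nat.card_congr
    exact (MulEquiv.subgroupCongr (Sylow.coe_subtype P hle)).toEquiv
  rw [h1]
  exact Nat.card_congr (Subgroup.subgroupOfEquivOfLe hle).toEquiv

/-- A `2`-subgroup of `C(y)` has order at most `N`. -/
theorem card_le_of_comm (h : DihCtx P σ τ N) {y : G} (hy : y ∈ zpowers σ) (hyy : y * y ≠ 1)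
    (R : Subgroup G) (hR : IsPGroup 2 R) (hRc : ∀ x ∈ R, Commute y x) : Nat.card R ≤ N := by
  classical
  haveI : Fact (Nat.Prime 2) := ⟨Nat.prime_two⟩
  have hyp : IsPGroup 2 (zpowers y) := by
    obtain ⟨k, hk⟩ := h.order_pow hy
    exact IsPGroup.of_card (n := k) (by rw [Nat.card_zpowers, hk])
  have hle : R ≤ normalizer (zpowers y : Set G) := by
    intro x hx
    rw [Subgroup.mem_normalizer_iff]
    have hc := hRc x hx
    intro w
    constructor
    · intro hw
      obtain ⟨n, rfl⟩ := Subgroup.mem_zpowers_iff.mp hw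
      rw [(hc.symm.zpow_right n).eq]
      simpa using zpow_mem_zpowers y n
    · intro hw
      obtain ⟨n, hn⟩ := Subgroup.mem_zpowers_iff.mp hw
      have : w = y ^ n := by
        have h5 : w = x⁻¹ * (x * w * x⁻¹) * x := by group
        rw [h5, ← hn, ((hc.symm.zpow_right n).inv_left).eq]
        group
      rw [this]
      exact zpow_mem_zpowers y n
  have hsup := IsPGroup.to_sup_of_normal_right' hR hyp hle
  obtain ⟨Q, hQ⟩ := hsup.exists_le_sylow
  obtain ⟨g, rfl⟩ := MulAction.exists_smul_eq G P Q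
  have hmem : ∀ x, x ∈ (g • P : Sylow 2 G) → g⁻¹ * x * g ∈ (P : Subgroup G) := by
    intro x hx
    exact (Cfsg.Agent.Lib.Transfer.Frobenius.mem_smul_sylow_iff g x P).mp hx
  have hyQ : y ∈ (g • P : Sylow 2 G) := hQ (le_sup_right (a := R) (mem_zpowers y))
  have hy₀ := hmem y hyQ
  have hy₀s : (g⁻¹ * y * g) * (g⁻¹ * y * g) ≠ 1 := by
    intro h1
    apply hyy
    calc y * y = g * ((g⁻¹ * y * g) * (g⁻¹ * y * g)) * g⁻¹ := by group
      _ = 1 := by rw [h1]; group
  have hy₀Z := h.mem_Z_of_sq hy₀ hy₀s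
  have hmap : ∀ x : R, g⁻¹ * (x : G) * g ∈ zpowers σ := by
    intro x
    have hxQ : (x : G) ∈ (g • P : Sylow 2 G) := hQ (le_sup_left (a := R) x.2)
    refine h.mem_Z_of_comm (hmem _ hxQ) hy₀Z hy₀s ?_
    have hc := hRc x x.2
    have : Commute (g⁻¹ * (x : G) * g) (g⁻¹ * y * g) := by
      have h2 := hc.symm.map (MulAut.conj g⁻¹)
      simpa [MulAut.conj_apply] using h2
    exact this
  rw [← h.card_Z]
  refine Nat.card_le_card_of_injective (fun x : R => (⟨_, hmap x⟩ : zpowers σ)) ?_
  intro a b hab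
  have h1 : g⁻¹ * (a : G) * g = g⁻¹ * (b : G) * g := congrArg Subtype.val hab
  apply Subtype.ext
  have := mul_left_cancel (mul_right_cancel h1)
  exact this

/-- Sylow subgroups of `C(y)`. -/
theorem card_sylow_of_sq (h : DihCtx P σ τ N) {y : G} (hy : y ∈ zpowers σ) (hyy : y * y ≠ 1)
    (R : Sylow 2 (centralizer ({y} : Set G))) : Nat.card R = N := by
  classical
  haveI : Fact (Nat.Prime 2) := ⟨Nat.prime_two⟩
  apply le_antisymm
  · -- upper bound
    have h1 := h.card_le_of_comm hy hyy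
      ((R : Subgroup (centralizer ({y} : Set G))).map (centralizer ({y} : Set G)).subtype)
      (R.2.map _) (by
        rintro _ ⟨x, -, rfl⟩
        exact (Subgroup.mem_centralizer_singleton_iff.mp x.2).symm)
    rwa [Subgroup.card_map_of_injective (Subgroup.subtype_injective _)] at h1
  · -- lower bound
    have hZC : zpowers σ ≤ centralizer ({y} : Set G) := by
      intro x hx
      rw [Subgroup.mem_centralizer_singleton_iff]
      exact (comm_of_mem hx hy).eq
    have hc : Nat.card ((zpowers σ).subgroupOf (centralizer ({y} : Set G))) = N := by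
      rw [← h.card_Z]
      exact Nat.card_congr (Subgroup.subgroupOfEquivOfLe hZC).toEquiv
    have hZ' : IsPGroup 2 ((zpowers σ).subgroupOf (centralizer ({y} : Set G))) := by
      obtain ⟨k, hk⟩ := h.hNp
      exact IsPGroup.of_card (n := k) (by rw [hc, hk])
    obtain ⟨R₀, hR₀⟩ := hZ'.exists_le_sylow
    rw [Nat.card_congr (Sylow.equiv R R₀).toEquiv, ← hc]
    exact Subgroup.card_le_of_le hR₀

/-- `C(y)` has a normal `2`-complement. -/
theorem hasNormal_of (h : DihCtx P σ τ N) {y : G} (hy : y ∈ zpowers σ) (hy1 : y ≠ 1) :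
    HasNormalPComplement 2 (centralizer ({y} : Set G)) := by
  haveI : Fact (Nat.Prime 2) := ⟨Nat.prime_two⟩
  have hle := h.centralizer_le hy hy1
  exact hasNormalPComplement_of_injective (Subgroup.inclusion hle)
    (Subgroup.inclusion_injective hle) h.hasNormal

variable [Fintype G] [Fintype (IrrCharacter G)] {M : Ideal AlgInt}

open Classical in
/-- The norm of the column of a rotation. -/
theorem secSum_self (h : DihCtx P σ τ N) (hM : IsPModular 2 M) {y : G} (hy : y ∈ zpowers σ)
    (hy1 : y ≠ 1) : secSum M y y = if y * y = 1 then 2 * (N : ℂ) else N := by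
  classical
  haveI : Fact (Nat.Prime 2) := ⟨Nat.prime_two⟩
  obtain ⟨R⟩ : Nonempty (Sylow 2 (centralizer ({y} : Set G))) := inferInstance
  have hc := isComplement'_pResidual (h.hasNormal_of hy hy1) R
  have hp : ∃ k : ℕ, orderOf y = 2 ^ k := h.order_pow hy
  rw [secSum_self_of_complement hM hp hc]
  split_ifs with hs
  · rcases h.eq_J hy hs with h1 | h1
    · exact absurd h1 hy1
    · revert R
      rw [h1]
      intro R _
      rw [h.card_sylow_J R]
      push_cast
      ring
  · rw [h.card_sylow_of_sq hy hs R]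

/-- The inverse of a rotation is conjugate to it. -/
theorem isConj_inv (h : DihCtx P σ τ N) {y : G} (hy : y ∈ zpowers σ) : IsConj y y⁻¹ :=
  isConj_iff.mpr ⟨τ, h.conj_mem hy⟩

open Classical in
/-- **The frame identity**. -/
theorem frame (h : DihCtx P σ τ N) (hM : IsPModular 2 M) {y y' : G} (hy : y ∈ zpowers σ)
    (hy1 : y ≠ 1) (hy' : y' ∈ zpowers σ) (hy'1 : y' ≠ 1) :
    secSum M y' y = (N : ℂ) * ((if y = y' then 1 else 0) + (if y = y'⁻¹ then 1 else 0)) := by
  classical
  haveI : Fact (Nat.Prime 2) := ⟨Nat.prime_two⟩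
  have hyinv : y * y = 1 ↔ y = y⁻¹ := by
    constructor
    · intro h1; exact (inv_eq_of_mul_eq_one_left h1).symm
    · intro h1
      calc y * y = y * y⁻¹ := by rw [← h1]
        _ = 1 := mul_inv_cancel y
  by_cases hc : IsConj y y'
  · rcases h.fusion hy hy' hc with e | e
    · rw [e, h.secSum_self hM hy hy1, if_pos rfl]
      by_cases hs : y * y = 1
      · rw [if_pos hs, if_pos (hyinv.mp hs)]
        push_cast
        ring
      · rw [if_neg hs, if_neg (fun h1 => hs (hyinv.mpr h1))]
        ring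
    · rw [e]
      have hne : secSum M y⁻¹ y = secSum M y y := by
        unfold secSum
        refine Finset.sum_congr rfl fun χ _ => ?_
        have hval : (χ : G → ℂ) y⁻¹ = (χ : G → ℂ) y := by
          have := Cfsg.Agent.Lib.Char.Basic.isClassFunction_of_isIrrCharacter χ.2 y τ
          rwa [h.conj_mem hy] at this
        simp only [hval]
      rw [inv_inv, hne, h.secSum_self hM hy hy1, if_pos rfl]
      by_cases hs : y = y⁻¹
      · rw [if_pos hs, if_pos (hyinv.mpr hs)]
        push_cast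
        ring
      · rw [if_neg hs, if_neg (fun h1 => hs (hyinv.mp h1))]
        ring
  · have hz := secSum_eq_zero hM (y := y') (h.order_pow hy')
      (isPPart_self_of (h.order_pow hy) Nat.prime_two) hc
    have hnc : ¬ y = y' := fun h1 => hc (by rw [h1])
    rw [hz, if_neg hnc, if_neg, add_zero, mul_zero]
    intro h1
    apply hc
    rw [h1]
    exact (h.isConj_inv hy').symm

end DihCtx

end Cfsg.Agent.Lib.DihBlock
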