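import Mathlib
import Cfsg.Agent.Lib.V4Block.Basic
import Cfsg.Agent.Lib.Blocks.Third
import Cfsg.Agent.S1254
import Cfsg.Agent.Lib.TwoGroups.Present

/-!
# Dihedral Sylow 2-subgroups: the local structure
-/

set_option autoImplicit false
set_option linter.unusedSectionVars false
set_option linter.style.haveILetI false

namespace Cfsg.Agent.Lib.DihBlock

open Cfsg Subgroup
open Cfsg.Agent.Lib.V4Block
open scoped Pointwise

universe u

variable {G : Type u} [Group G] [Finite G]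

/-- The generators of a dihedral Sylow `2`-subgroup. -/
structure DihCtx (P : Sylow 2 G) (σ τ : G) (N : ℕ) : Prop where
  hN : 4 ≤ N
  hNp : ∃ k, N = 2 ^ k
  σP : σ ∈ (P : Subgroup G)
  τP : τ ∈ (P : Subgroup G)
  σo : orderOf σ = N
  τo : orderOf τ = 2
  rel : τ * σ * τ⁻¹ = σ⁻¹
  gen : ∀ x ∈ (P : Subgroup G), ∃ i : ℕ, x = σ ^ i ∨ x = σ ^ i * τ

variable {P : Sylow 2 G} {σ τ : G} {N : ℕ}

namespace DihCtx

theorem ττ (h : DihCtx P σ τ N) : τ * τ = 1 := mul_self_of_orderOf_two h.τo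

theorem τinv (h : DihCtx P σ τ N) : τ⁻¹ = τ := inv_eq_of_mul_eq_one_left h.ττ

theorem conj_zpow (h : DihCtx P σ τ N) (i : ℤ) : τ * σ ^ i * τ⁻¹ = (σ ^ i)⁻¹ := by
  rw [← _root_.conj_zpow, h.rel, inv_zpow]

theorem conj_mem (h : DihCtx P σ τ N) {y : G} (hy : y ∈ zpowers σ) : τ * y * τ⁻¹ = y⁻¹ := by
  obtain ⟨i, rfl⟩ := Subgroup.mem_zpowers_iff.mp hy
  exact h.conj_zpow i

theorem comm_of_mem {x y : G} (hx : x ∈ zpowers σ) (hy : y ∈ zpowers σ) : Commute x y := by
  obtain ⟨i, rfl⟩ := Subgroup.mem_zpowers_iff.mp hx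
  obtain ⟨j, rfl⟩ := Subgroup.mem_zpowers_iff.mp hy
  exact (Commute.refl σ).zpow_zpow _ _

/-- A reflection inverts the rotations. -/
theorem refl_conj (h : DihCtx P σ τ N) (i : ℕ) {y : G} (hy : y ∈ zpowers σ) :
    (σ ^ i * τ) * y * (σ ^ i * τ)⁻¹ = y⁻¹ := by
  have h1 := h.conj_mem hy
  have hc : Commute (σ ^ i) y⁻¹ := comm_of_mem (pow_mem (mem_zpowers σ) i) (inv_mem hy)
  calc (σ ^ i * τ) * y * (σ ^ i * τ)⁻¹ = σ ^ i * (τ * y * τ⁻¹) * (σ ^ i)⁻¹ := by group
    _ = σ ^ i * y⁻¹ * (σ ^ i)⁻¹ := by rw [h1]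
    _ = y⁻¹ := by rw [hc.eq]; group

theorem refl_sq (h : DihCtx P σ τ N) (i : ℕ) : (σ ^ i * τ) * (σ ^ i * τ) = 1 := by
  have h1 := h.conj_mem (y := σ ^ i) (pow_mem (mem_zpowers σ) i)
  calc (σ ^ i * τ) * (σ ^ i * τ) = σ ^ i * (τ * σ ^ i * τ⁻¹) * (τ * τ) := by
        group
    _ = 1 := by rw [h1, h.ττ]; group

/-- An element of `P` with nontrivial square is a rotation. -/
theorem mem_Z_of_sq (h : DihCtx P σ τ N) {x : G} (hx : x ∈ (P : Subgroup G)) (hs : x * x ≠ 1) :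
    x ∈ zpowers σ := by
  obtain ⟨i, rfl | rfl⟩ := h.gen x hx
  · exact pow_mem (mem_zpowers σ) i
  · exact absurd (h.refl_sq i) hs

/-- An element of `P` commuting with a noninvolutory rotation is a rotation. -/
theorem mem_Z_of_comm (h : DihCtx P σ τ N) {x y : G} (hx : x ∈ (P : Subgroup G))
    (hy : y ∈ zpowers σ) (hyy : y * y ≠ 1) (hc : Commute x y) : x ∈ zpowers σ := by
  obtain ⟨i, rfl | rfl⟩ := h.gen x hx
  · exact pow_mem (mem_zpowers σ) i
  · exfalso
    apply hyy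
    have h1 := h.refl_conj i hy
    rw [hc.eq] at h1
    have h2 : y = y⁻¹ := by
      rw [← h1]
      group
    calc y * y = y * y⁻¹ := by rw [← h2]
      _ = 1 := mul_inv_cancel y

theorem Z_le (h : DihCtx P σ τ N) : zpowers σ ≤ (P : Subgroup G) := zpowers_le.mpr h.σP

/-- The central involution. -/
theorem half_two (h : DihCtx P σ τ N) : 2 * (N / 2) = N := by
  obtain ⟨k, rfl⟩ := h.hNp
  have hN := h.hN
  cases k with
  | zero => norm_num at hN
  | succ k => rw [pow_succ]; simp [mul_comm]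

theorem J_order (h : DihCtx P σ τ N) : orderOf (σ ^ (N / 2)) = 2 := by
  have h1 := h.half_two
  have hN := h.hN
  rw [orderOf_pow_of_dvd (by omega) ⟨2, by rw [h.σo]; omega⟩, h.σo]
  exact Nat.div_eq_of_eq_mul_left (by omega) (by omega)

theorem J_mem (_h : DihCtx P σ τ N) : σ ^ (N / 2) ∈ zpowers σ := pow_mem (mem_zpowers σ) _

theorem J_sq (h : DihCtx P σ τ N) : σ ^ (N / 2) * σ ^ (N / 2) = 1 :=
  mul_self_of_orderOf_two h.J_order

theorem exists_pow {y : G} (hy : y ∈ zpowers σ) : ∃ i : ℕ, y = σ ^ i := by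
  obtain ⟨i, hi⟩ := (mem_powers_iff_mem_zpowers (x := σ) (y := y)).mpr hy
  exact ⟨i, hi.symm⟩

/-- The unique involution of `Z`. -/
theorem eq_J (h : DihCtx P σ τ N) {y : G} (hy : y ∈ zpowers σ) (hs : y * y = 1) :
    y = 1 ∨ y = σ ^ (N / 2) := by
  have hN := h.hN
  have h2 := h.half_two
  obtain ⟨i, rfl⟩ := exists_pow hy
  have h3 : σ ^ (2 * i) = 1 := by rw [two_mul, pow_add]; exact hs
  have h4 : N ∣ 2 * i := by rw [← h.σo]; exact orderOf_dvd_of_pow_eq_one h3
  have h5 : N / 2 ∣ i := by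
    rw [← h2] at h4
    exact (Nat.mul_dvd_mul_iff_left (by norm_num)).mp h4
  obtain ⟨t, rfl⟩ := h5
  rw [pow_mul]
  rcases Nat.even_or_odd' t with ⟨c, rfl | rfl⟩
  · left
    rw [pow_mul, sq, h.J_sq, one_pow]
  · right
    rw [pow_succ, pow_mul, sq, h.J_sq, one_pow, one_mul]

theorem J_comm (h : DihCtx P σ τ N) {x : G} (hx : x ∈ (P : Subgroup G)) :
    Commute x (σ ^ (N / 2)) := by
  obtain ⟨i, rfl | rfl⟩ := h.gen x hx
  · exact comm_of_mem (pow_mem (mem_zpowers σ) i) h.J_mem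
  · have h1 := h.refl_conj i h.J_mem
    have h2 : (σ ^ (N / 2))⁻¹ = σ ^ (N / 2) := inv_eq_of_mul_eq_one_left h.J_sq
    rw [h2] at h1
    calc (σ ^ i * τ) * σ ^ (N / 2) =
        ((σ ^ i * τ) * σ ^ (N / 2) * (σ ^ i * τ)⁻¹) * (σ ^ i * τ) := by group
      _ = _ := by rw [h1]

/-- `J` is a power of each nontrivial rotation. -/
theorem J_mem_zpowers (h : DihCtx P σ τ N) {y : G} (hy : y ∈ zpowers σ) (hy1 : y ≠ 1) :
    σ ^ (N / 2) ∈ zpowers y := by
  obtain ⟨k, hk⟩ := h.hNp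
  have hdvd : orderOf y ∣ 2 ^ k := by
    rw [← hk, ← h.σo]
    exact orderOf_dvd_of_mem_zpowers hy
  obtain ⟨r, -, hr⟩ := (Nat.dvd_prime_pow Nat.prime_two).mp hdvd
  have hr0 : r ≠ 0 := by
    rintro rfl
    rw [pow_zero, orderOf_eq_one_iff] at hr
    exact hy1 hr
  obtain ⟨r', rfl⟩ := Nat.exists_eq_succ_of_ne_zero hr0
  set w := y ^ (2 ^ r') with hw
  have hw1 : w ≠ 1 := by
    intro h1
    have := orderOf_dvd_of_pow_eq_one h1
    rw [hr] at this
    have h3 := Nat.le_of_dvd (by positivity) this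
    rw [Nat.succ_eq_add_one, pow_succ] at h3
    have : 0 < 2 ^ r' := by positivity
    omega
  have hws : w * w = 1 := by
    rw [hw, ← pow_add, ← two_mul, ← pow_succ', ← hr]
    exact pow_orderOf_eq_one y
  have hwZ : w ∈ zpowers σ := pow_mem hy _
  rcases h.eq_J hwZ hws with h1 | h1
  · exact absurd h1 hw1
  · rw [← h1]
    exact pow_mem (mem_zpowers y) _

/-- The central involution centralizes the centralizers. -/
theorem centralizer_le (h : DihCtx P σ τ N) {y : G} (hy : y ∈ zpowers σ) (hy1 : y ≠ 1) :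
    centralizer ({y} : Set G) ≤ centralizer ({σ ^ (N / 2)} : Set G) := by
  intro x hx
  rw [Subgroup.mem_centralizer_singleton_iff] at hx ⊢
  obtain ⟨n, hn⟩ := Subgroup.mem_zpowers_iff.mp (h.J_mem_zpowers hy hy1)
  rw [← hn]
  have : Commute x y := hx
  exact (this.zpow_right n).eq

theorem τ_notMem (h : DihCtx P σ τ N) : τ ∉ zpowers σ := by
  intro hτ
  have hN := h.hN
  have h2 : Commute τ σ := comm_of_mem hτ (mem_zpowers σ)
  have h1 := h.rel
  rw [h2.eq] at h1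
  have h3 : σ * σ = 1 := by
    have : σ = σ⁻¹ := by rw [← h1]; group
    calc σ * σ = σ * σ⁻¹ := by rw [← this]
      _ = 1 := mul_inv_cancel σ
  have h4 : N ∣ 2 := by
    rw [← h.σo]
    apply orderOf_dvd_of_pow_eq_one
    rw [sq]
    exact h3
  have := Nat.le_of_dvd (by norm_num) h4
  omega

theorem card_Z (h : DihCtx P σ τ N) : Nat.card (zpowers σ) = N := by
  rw [Nat.card_zpowers, h.σo]

/-- The order of `P`. -/
theorem card_P (h : DihCtx P σ τ N) : Nat.card (P : Subgroup G) = 2 * N := by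
  classical
  have hU : ((P : Subgroup G) : Set G) =
      (zpowers σ : Set G) ∪ (fun z => z * τ) '' (zpowers σ : Set G) := by
    ext x
    simp only [SetLike.mem_coe, Set.mem_union, Set.mem_image]
    constructor
    · intro hx
      obtain ⟨i, rfl | rfl⟩ := h.gen x hx
      · exact Or.inl (pow_mem (mem_zpowers σ) i)
      · exact Or.inr ⟨_, pow_mem (mem_zpowers σ) i, rfl⟩
    · rintro (hx | ⟨z, hz, rfl⟩)
      · exact h.Z_le hx
      · exact Subgroup.mul_mem _ (h.Z_le hz) h.τP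
  have hd : Disjoint (zpowers σ : Set G) ((fun z => z * τ) '' (zpowers σ : Set G)) := by
    rw [Set.disjoint_left]
    rintro x hx ⟨z, hz, rfl⟩
    apply h.τ_notMem
    have : τ = z⁻¹ * (z * τ) := by group
    rw [this]
    exact Subgroup.mul_mem _ (inv_mem hz) hx
  have hinj : Function.Injective (fun z : G => z * τ) := mul_left_injective τ
  have hc : ((zpowers σ : Set G)).ncard = N := by
    rw [← Nat.card_coe_set_eq]
    exact h.card_Z
  have h1 : Nat.card (P : Subgroup G) = ((P : Subgroup G) : Set G).ncard :=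
    (Nat.card_coe_set_eq _)
  rw [h1, hU, Set.ncard_union_eq hd (Set.toFinite _) (Set.toFinite _),
    Set.ncard_image_of_injective _ hinj, hc]
  ring

/-- The recognition. -/
theorem nonempty_dihedral (h : DihCtx P σ τ N) :
    Nonempty ((P : Subgroup G) ≃* DihedralGroup N) := by
  haveI : NeZero N := ⟨by have := h.hN; omega⟩
  refine Cfsg.Agent.Lib.TwoGroups.Present.nonempty_dihedral
    (a := (⟨σ, h.σP⟩ : (P : Subgroup G))) (b := ⟨τ, h.τP⟩) ?_ ?_ ?_ ?_ h.card_P
  · rw [Subgroup.orderOf_mk]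
    exact h.σo
  · exact Subtype.ext h.ττ
  · exact Subtype.ext h.rel
  · intro hmem
    apply h.τ_notMem
    obtain ⟨n, hn⟩ := Subgroup.mem_zpowers_iff.mp hmem
    have := congrArg Subtype.val hn
    simp only [SubgroupClass.coe_zpow] at this
    rw [← this]
    exact zpow_mem_zpowers _ _

end DihCtx

end Cfsg.Agent.Lib.DihBlock
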