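import Cfsg.Agent.Lib.DihBlock.Group
import Cfsg.Agent.Lib.ZStar.Section
import Cfsg.Agent.Lib.HSubgroup.Basic

/-!
# Dihedral Sylow 2-subgroups: the centralizer of the central involution
-/

set_option autoImplicit false
set_option linter.unusedSectionVars false
set_option linter.style.haveILetI false

namespace Cfsg.Agent.Lib.DihBlock

open Cfsg Subgroup
open Cfsg.Agent.Lib.V4Block
open scoped Pointwise

universe u

variable {G : Type u} [Group G] [Finite G]

/-- Elements of a subgroup of order four. -/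
theorem mem_four_aux (U : Subgroup G) (hcard : Nat.card U = 4) {J a x : G} (hJ : J ∈ U) (ha : a ∈ U)
    (hx : x ∈ U) (hJ1 : J ≠ 1) (ha1 : a ≠ 1) (haJ : a ≠ J) (haJ1 : a * J ≠ 1) :
    x = 1 ∨ x = J ∨ x = a ∨ x = a * J := by
  classical
  by_contra hcon
  push Not at hcon
  obtain ⟨hx1, hxJ, hxw, hxwJ⟩ := hcon
  have hwJJ : a * J ≠ J := fun h => ha1 (mul_eq_right.mp h)
  have hwJw : a * J ≠ a := fun h => hJ1 (mul_eq_left.mp h)
  let T : Finset G := {x, 1, J, a, a * J}
  have hT : T.card = 5 := by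
    have hTdef : T = {x, 1, J, a, a * J} := rfl
    rw [hTdef, Finset.card_insert_of_notMem, Finset.card_insert_of_notMem,
      Finset.card_insert_of_notMem, Finset.card_insert_of_notMem, Finset.card_singleton]
    · simp only [Finset.mem_singleton]; exact hwJw.symm
    · simp only [Finset.mem_insert, Finset.mem_singleton, not_or]; exact ⟨haJ.symm, hwJJ.symm⟩
    · simp only [Finset.mem_insert, Finset.mem_singleton, not_or]
      exact ⟨hJ1.symm, ha1.symm, haJ1.symm⟩
    · simp only [Finset.mem_insert, Finset.mem_singleton, not_or]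
      exact ⟨hx1, hxJ, hxw, hxwJ⟩
  have hsub : (T : Set G) ⊆ (U : Set G) := by
    intro y hy
    simp only [T, Finset.coe_insert, Finset.coe_singleton, Set.mem_insert_iff,
      Set.mem_singleton_iff] at hy
    rcases hy with rfl | rfl | rfl | rfl | rfl
    · exact hx
    · exact U.one_mem
    · exact hJ
    · exact ha
    · exact U.mul_mem ha hJ
  have h1 := Set.ncard_le_ncard hsub (Set.toFinite _)
  rw [Set.ncard_coe_finset, hT, ← Nat.card_coe_set_eq] at h1
  have h2 : Nat.card (U : Set G) = 4 := hcard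
  omega

variable {P : Sylow 2 G} {σ τ : G} {N : ℕ}

namespace DihCtx

/-- The structure of a four-subgroup of `P`. -/
theorem four_structure (h : DihCtx P σ τ N) (U : Subgroup G) (hU : U ≤ (P : Subgroup G))
    (hcard : Nat.card U = 4) (hexp : ∀ x ∈ U, x * x = 1) :
    ∃ a ∈ U, a ∉ zpowers σ ∧ σ ^ (N / 2) ∈ U ∧
      ∀ u ∈ U, u = 1 ∨ u = σ ^ (N / 2) ∨ u = a ∨ u = a * σ ^ (N / 2) := by
  classical
  have hJo := h.J_order
  have hJ1 : σ ^ (N / 2) ≠ 1 := ne_one_of_orderOf_two hJo
  -- a reflection in `U`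
  have hex : ∃ a ∈ U, a ∉ zpowers σ := by
    by_contra hcon
    push Not at hcon
    have hsub : (U : Set G) ⊆ (({1, σ ^ (N / 2)} : Finset G) : Set G) := by
      intro x hx
      rcases h.eq_J (hcon x hx) (hexp x hx) with h1 | h1 <;> simp [h1]
    have h1 := Set.ncard_le_ncard hsub (Set.toFinite _)
    rw [Set.ncard_coe_finset, ← Nat.card_coe_set_eq] at h1
    have h2 : Nat.card (U : Set G) = 4 := hcard
    have h3 := Finset.card_le_two (a := (1 : G)) (b := σ ^ (N / 2))
    omega
  obtain ⟨a, haU, haZ⟩ := hex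
  have ha1 : a ≠ 1 := fun h1 => haZ (h1 ▸ one_mem _)
  have haa := hexp a haU
  -- another element
  have hex2 : ∃ b ∈ U, b ≠ 1 ∧ b ≠ a := by
    by_contra hcon
    push Not at hcon
    have hsub : (U : Set G) ⊆ (({1, a} : Finset G) : Set G) := by
      intro x hx
      by_cases h1 : x = 1
      · simp [h1]
      · simp [hcon x hx h1]
    have h1 := Set.ncard_le_ncard hsub (Set.toFinite _)
    rw [Set.ncard_coe_finset, ← Nat.card_coe_set_eq] at h1
    have h2 : Nat.card (U : Set G) = 4 := hcard
    have h3 := Finset.card_le_two (a := (1 : G)) (b := a)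
    omega
  obtain ⟨b, hbU, hb1, hba⟩ := hex2
  have hJU : σ ^ (N / 2) ∈ U := by
    by_cases hbZ : b ∈ zpowers σ
    · rcases h.eq_J hbZ (hexp b hbU) with h1 | h1
      · exact absurd h1 hb1
      · rwa [← h1]
    · -- two reflections: their product is a rotation
      obtain ⟨i, hi | hi⟩ := h.gen a (hU haU)
      · exact absurd (hi ▸ pow_mem (mem_zpowers σ) i) haZ
      obtain ⟨j, hj | hj⟩ := h.gen b (hU hbU)
      · exact absurd (hj ▸ pow_mem (mem_zpowers σ) j) hbZ
      have hab : a * b ∈ zpowers σ := by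
        rw [hi, hj]
        have h1 := h.conj_mem (y := σ ^ j) (pow_mem (mem_zpowers σ) j)
        have h2 : σ ^ i * τ * (σ ^ j * τ) = σ ^ i * (τ * σ ^ j * τ⁻¹) * (τ * τ) := by group
        rw [h2, h1, h.ττ, mul_one]
        exact Subgroup.mul_mem _ (pow_mem (mem_zpowers σ) i)
          (inv_mem (pow_mem (mem_zpowers σ) j))
      have hab1 : a * b ≠ 1 := by
        intro h1
        apply hba
        have : b = a⁻¹ := eq_inv_of_mul_eq_one_right h1
        rw [this]
        exact inv_eq_of_mul_eq_one_left haa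
      rcases h.eq_J hab (hexp _ (U.mul_mem haU hbU)) with h1 | h1
      · exact absurd h1 hab1
      · rw [← h1]
        exact U.mul_mem haU hbU
  refine ⟨a, haU, haZ, hJU, fun u hu => ?_⟩
  have haJ : a ≠ σ ^ (N / 2) := fun h1 => haZ (h1 ▸ h.J_mem)
  have haJ1 : a * σ ^ (N / 2) ≠ 1 := by
    intro h1
    apply haJ
    have h2 : σ ^ (N / 2) = a⁻¹ := eq_inv_of_mul_eq_one_right h1
    rw [h2, inv_eq_of_mul_eq_one_left haa]
  exact mem_four_aux U hcard hJU haU hu hJ1 ha1 haJ haJ1

/-- The rotation by a quarter turn moves a reflection to its product with `J`. -/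
theorem quarter_conj (h : DihCtx P σ τ N) (i : ℕ) :
    σ ^ (N / 4) * (σ ^ i * τ) * (σ ^ (N / 4))⁻¹ = (σ ^ i * τ) * σ ^ (N / 2) := by
  have hN4 : 2 * (N / 4) = N / 2 := by
    obtain ⟨k, rfl⟩ := h.hNp
    have hN := h.hN
    rcases k with _ | _ | k
    · norm_num at hN
    · norm_num at hN
    · have h4 : 2 ^ (k + 1 + 1) = 4 * 2 ^ k := by ring
      rw [h4]
      omega
  have h1 := h.refl_conj i (y := σ ^ (N / 4)) (pow_mem (mem_zpowers σ) _)
  have hq : σ ^ (N / 2) = σ ^ (N / 4) * σ ^ (N / 4) := by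
    rw [← pow_add, ← two_mul, hN4]
  have hJJ : (σ ^ (N / 2))⁻¹ = σ ^ (N / 2) := inv_eq_of_mul_eq_one_left h.J_sq
  rw [hq] at hJJ ⊢
  set x := σ ^ i * τ with hx
  set y := σ ^ (N / 4) with hy
  have h3 : x * y⁻¹ = y * x := by
    calc x * y⁻¹ = (x * y * x⁻¹)⁻¹ * x := by group
      _ = y * x := by rw [h1, inv_inv]
  calc y * x * y⁻¹ = (x * y⁻¹) * y⁻¹ := by rw [h3]
    _ = x * (y * y)⁻¹ := by group
    _ = x * (y * y) := by rw [hJJ]

/-- The centralizer of `J` has a normal `2`-complement. -/
theorem hasNormal (h : DihCtx P σ τ N) :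
    HasNormalPComplement 2 (centralizer ({σ ^ (N / 2)} : Set G)) := by
  classical
  set J := σ ^ (N / 2) with hJdef
  set C := centralizer ({J} : Set G) with hC
  have hle : (P : Subgroup G) ≤ C := fun x hx =>
    Subgroup.mem_centralizer_singleton_iff.mpr (h.J_comm hx).eq
  obtain ⟨e⟩ := h.nonempty_dihedral
  have hJo : orderOf J = 2 := h.J_order
  have hJJ : J * J = 1 := h.J_sq
  have hJ1 : J ≠ 1 := ne_one_of_orderOf_two hJo
  have hJinv : J⁻¹ = J := inv_eq_of_mul_eq_one_left hJJ
  have hcommC : ∀ c : C, Commute J (c : G) := fun c =>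
    (Subgroup.mem_centralizer_singleton_iff.mp c.2).symm
  let S : Sylow 2 C := P.subtype hle
  have hSm : ∀ x : C, x ∈ (S : Subgroup C) ↔ (x : G) ∈ (P : Subgroup G) := by
    intro x
    rw [Sylow.coe_subtype, Subgroup.mem_subgroupOf]
  let eS : (S : Subgroup C) ≃* DihedralGroup N :=
    (MulEquiv.subgroupCongr (Sylow.coe_subtype P hle)).trans
      ((Subgroup.subgroupOfEquivOfLe hle).trans e)
  have hN2 : 2 ≤ N := by have := h.hN; omega
  refine (Cfsg.Agent.S1254.result S N hN2 eS).mpr ?_
  intro U hUS hKl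
  -- transfer `U` to `G`
  set V : Subgroup G := U.map C.subtype with hV
  have hVm : ∀ x : G, x ∈ V ↔ ∃ hx : x ∈ C, (⟨x, hx⟩ : C) ∈ U := by
    intro x
    constructor
    · rintro ⟨y, hy, rfl⟩
      exact ⟨y.2, hy⟩
    · rintro ⟨hx, hy⟩
      exact ⟨⟨x, hx⟩, hy, rfl⟩
  have hVP : V ≤ (P : Subgroup G) := by
    rintro _ ⟨y, hy, rfl⟩
    exact (hSm y).mp (hUS hy)
  have hVc : Nat.card V = 4 := by
    rw [hV, Subgroup.card_map_of_injective (Subgroup.subtype_injective C)]
    exact hKl.card_four
  have hVe : ∀ x ∈ V, x * x = 1 := by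
    rintro _ ⟨y, hy, rfl⟩
    have := IsKleinFour.mul_self (⟨y, hy⟩ : U)
    exact congrArg (fun z : U => ((z : C) : G)) this
  obtain ⟨a, haV, haZ, hJV, hall⟩ := h.four_structure V hVP hVc hVe
  have haC : a ∈ C := hle (hVP haV)
  have haa := hVe a haV
  have haP := hVP haV
  have ha1 : a ≠ 1 := fun h1 => haZ (h1 ▸ one_mem _)
  have haJ : a ≠ J := fun h1 => haZ (h1 ▸ h.J_mem)
  have haJc : Commute a J := h.J_comm haP
  apply le_antisymm
  · intro x hxN
    -- the image of `a`
    have haU : (⟨a, haC⟩ : C) ∈ U := ((hVm a).mp haV).2 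
    have hxa : (x : G) * a * (x : G)⁻¹ ∈ V := by
      have h1 := (Subgroup.mem_normalizer_iff.mp hxN ⟨a, haC⟩).mp haU
      exact (hVm _).mpr ⟨(x * ⟨a, haC⟩ * x⁻¹ : C).2, h1⟩
    have hne1 : (x : G) * a * (x : G)⁻¹ ≠ 1 := by
      intro h1
      apply ha1
      have : a = (x : G)⁻¹ * ((x : G) * a * (x : G)⁻¹) * x := by group
      rw [this, h1]
      group
    have hneJ : (x : G) * a * (x : G)⁻¹ ≠ J := by
      intro h1
      apply haJ
      have : a = (x : G)⁻¹ * ((x : G) * a * (x : G)⁻¹) * x := by group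
      rw [this, h1, (hcommC x).inv_right.eq.symm]
      group
    -- elements of `C` fixing `a` centralize `U`
    have hcent : ∀ y : C, (y : G) * a * (y : G)⁻¹ = a →
        y ∈ centralizer ((U : Set C)) := by
      intro y hy
      have hya : Commute (y : G) a := by
        calc (y : G) * a = ((y : G) * a * (y : G)⁻¹) * y := by group
          _ = a * y := by rw [hy]
      rw [Subgroup.mem_centralizer_iff]
      intro u hu
      apply Subtype.ext
      have hu' : (u : G) ∈ V := (hVm _).mpr ⟨u.2, hu⟩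
      have : Commute (y : G) (u : G) := by
        rcases hall _ hu' with h1 | h1 | h1 | h1
        · rw [h1]; exact Commute.one_right _
        · rw [h1]; exact (hcommC y).symm
        · rw [h1]; exact hya
        · rw [h1]; exact hya.mul_right (hcommC y).symm
      exact this.eq.symm
    rcases hall _ hxa with h1 | h1 | h1 | h1
    · exact absurd h1 hne1
    · exact absurd h1 hneJ
    · exact Subgroup.mem_sup_left (hcent x h1)
    · -- the quarter turn
      obtain ⟨i, hi | hi⟩ := h.gen a haP
      · exact absurd (hi ▸ pow_mem (mem_zpowers σ) i) haZ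
      set p := σ ^ (N / 4) with hp
      have hpP : p ∈ (P : Subgroup G) := h.Z_le (pow_mem (mem_zpowers σ) _)
      have hq := h.quarter_conj i
      rw [← hi] at hq
      have hpa : p * a * p⁻¹ = a * J := hq
      have hpJ : Commute p J := h.J_comm hpP
      let p' : C := ⟨p, hle hpP⟩
      have hp'N : p' ∈ normalizer ((U : Set C)) := by
        apply Cfsg.Agent.Lib.HSubgroup.Basic.mem_normalizer_of_conj_le
        intro u hu
        have hu' : (u : G) ∈ V := (hVm _).mpr ⟨u.2, hu⟩
        have : (p : G) * (u : G) * (p : G)⁻¹ ∈ V := by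
          rcases hall _ hu' with h2 | h2 | h2 | h2
          · rw [h2]; simp
          · rw [h2, hpJ.eq]; simpa using hJV
          · rw [h2, hpa]; exact V.mul_mem haV hJV
          · rw [h2]
            have : p * (a * J) * p⁻¹ = (p * a * p⁻¹) * J := by
              calc p * (a * J) * p⁻¹ = p * a * (J * p⁻¹) := by group
                _ = p * a * (p⁻¹ * J) := by rw [hpJ.inv_left.eq]
                _ = _ := by group
            rw [this, hpa, mul_assoc, hJJ, mul_one]
            exact haV
        exact ((hVm _).mp this).2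
      have hp'S : p' ∈ (S : Subgroup C) := (hSm p').mpr hpP
      have hx' : x = (x * p'⁻¹) * p' := by group
      rw [hx']
      refine Subgroup.mul_mem_sup (hcent _ ?_) ⟨hp'S, hp'N⟩
      -- `x p⁻¹` fixes `a`
      have h3 : p⁻¹ * a * p = a * J := by
        have h4 : p * (a * J) * p⁻¹ = a := by
          have : p * (a * J) * p⁻¹ = (p * a * p⁻¹) * J := by
            calc p * (a * J) * p⁻¹ = p * a * (J * p⁻¹) := by group
              _ = p * a * (p⁻¹ * J) := by rw [hpJ.inv_left.eq]
              _ = _ := by group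
          rw [this, hpa, mul_assoc, hJJ, mul_one]
        calc p⁻¹ * a * p = p⁻¹ * (p * (a * J) * p⁻¹) * p := by rw [h4]
          _ = a * J := by group
      change (x : G) * p⁻¹ * a * ((x : G) * p⁻¹)⁻¹ = a
      calc (x : G) * p⁻¹ * a * ((x : G) * p⁻¹)⁻¹ = (x : G) * (p⁻¹ * a * p) * (x : G)⁻¹ := by group
        _ = (x : G) * (a * J) * (x : G)⁻¹ := by rw [h3]
        _ = ((x : G) * a * (x : G)⁻¹) * ((x : G) * J * (x : G)⁻¹) := by group
        _ = (a * J) * J := by
            have hxJ : (x : G) * J * (x : G)⁻¹ = J := by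
              rw [← (hcommC x).eq]
              group
            rw [hxJ]
            exact congrArg (· * J) h1
        _ = a := by rw [mul_assoc, hJJ, mul_one]
  · exact sup_le (Subgroup.centralizer_le_normalizer _) inf_le_right

end DihCtx

end Cfsg.Agent.Lib.DihBlock
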