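import Cfsg.Agent.Lib.DihBlock.Group

/-!
# The generators from an isomorphism with the dihedral group
-/

set_option autoImplicit false
set_option linter.unusedSectionVars false
set_option linter.style.haveILetI false

namespace Cfsg.Agent.Lib.DihBlock

open Cfsg Subgroup

universe u

variable {G : Type u} [Group G] [Finite G]

/-- The generators from an isomorphism with the dihedral group. -/
theorem exists_dihCtx_of_iso {P : Sylow 2 G} {N : ℕ} (hN : 4 ≤ N) (hNp : ∃ k, N = 2 ^ k)
    (hP : Nonempty ((P : Subgroup G) ≃* DihedralGroup N)) {σ : G} (hσ : σ ∈ (P : Subgroup G))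
    (hσo : orderOf σ = N) : ∃ τ : G, DihCtx P σ τ N := by
  classical
  obtain ⟨φ⟩ := hP
  haveI : NeZero N := ⟨by omega⟩
  set s : DihedralGroup N := φ ⟨σ, hσ⟩ with hs
  have hso : orderOf s = N := by
    rw [hs, MulEquiv.orderOf_eq, Subgroup.orderOf_mk, hσo]
  obtain ⟨i, hi⟩ : ∃ i : ZMod N, s = DihedralGroup.r i := by
    rcases h : s with i | i
    · exact ⟨i, rfl⟩
    · exfalso
      rw [h, DihedralGroup.orderOf_sr] at hso
      omega
  have hg : Nat.gcd N i.val = 1 := by
    rw [hi, DihedralGroup.orderOf_r] at hso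
    exact (Nat.div_eq_self.mp hso).resolve_left (by omega)
  have hcop : Nat.Coprime i.val N := by
    rw [Nat.coprime_comm]
    exact hg
  set u : ZMod N := i⁻¹ with hu
  have hiu : i * u = 1 := by
    have := ZMod.coe_mul_inv_eq_one i.val hcop
    rwa [ZMod.natCast_zmod_val] at this
  let t : (P : Subgroup G) := φ.symm (DihedralGroup.sr 0)
  have ht : φ t = DihedralGroup.sr 0 := by simp [t]
  have hpow : ∀ m : ℕ, φ (⟨σ, hσ⟩ ^ m) = DihedralGroup.r (i * (m : ZMod N)) := by
    intro m
    rw [map_pow, ← hs, hi, DihedralGroup.r_pow]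
  refine ⟨t, hN, hNp, hσ, t.2, hσo, ?_, ?_, ?_⟩
  · have := Subgroup.orderOf_coe t
    rw [this, ← MulEquiv.orderOf_eq φ, ht, DihedralGroup.orderOf_sr]
  · have h1 : φ (t * ⟨σ, hσ⟩ * t⁻¹) = φ ((⟨σ, hσ⟩ : (P : Subgroup G))⁻¹) := by
      rw [map_mul, map_mul, map_inv, map_inv, ht, ← hs, hi, DihedralGroup.inv_sr,
        DihedralGroup.sr_mul_r, DihedralGroup.sr_mul_sr, DihedralGroup.inv_r]
      simp
    have h2 := φ.injective h1
    exact congrArg Subtype.val h2
  · intro x hx
    rcases h : φ ⟨x, hx⟩ with j | j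
    · refine ⟨(j * u).val, Or.inl ?_⟩
      have h1 : φ ⟨x, hx⟩ = φ (⟨σ, hσ⟩ ^ (j * u).val) := by
        rw [hpow, h, ZMod.natCast_zmod_val]
        congr 1
        calc j = j * (i * u) := by rw [hiu, mul_one]
          _ = i * (j * u) := by ring
      have h2 := φ.injective h1
      exact congrArg Subtype.val h2
    · refine ⟨(-j * u).val, Or.inr ?_⟩
      have h1 : φ ⟨x, hx⟩ = φ (⟨σ, hσ⟩ ^ (-j * u).val * t) := by
        rw [map_mul, hpow, h, ht, ZMod.natCast_zmod_val, DihedralGroup.r_mul_sr]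
        congr 1
        calc j = j * (i * u) := by rw [hiu, mul_one]
          _ = 0 - i * (-j * u) := by ring
      have h2 := φ.injective h1
      exact congrArg Subtype.val h2

end Cfsg.Agent.Lib.DihBlock
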